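import Cfsg.Agent.H295.War.Defs

/-!
# S2453, L5/L6: existence of good polynomials (norm one, `2e`-th powers)
-/

set_option autoImplicit false

namespace Cfsg.Agent.H544.War

open Polynomial Cfsg.Agent.H295.War

theorem isCoprime_of_root {F K : Type*} [Field F] [Field K] [Algebra F K] {c p : F[X]} (hc : Irreducible c)
    {a : K} (ha : aeval a c = 0) (hp : aeval a p ≠ 0) : IsCoprime c p := by
  rw [hc.coprime_iff_not_dvd]
  rintro ⟨d, rfl⟩
  apply hp
  rw [map_mul, ha, zero_mul]

theorem aeval_reverse_ne {F K : Type*} [Field F] [Field K] [Algebra F K] {c : F[X]} {a : K} (ha0 : a ≠ 0)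
    (h : aeval a⁻¹ c ≠ 0) : aeval a c.reverse ≠ 0 := by
  intro h1
  apply h
  have : Invertible a⁻¹ := invertibleOfNonzero (inv_ne_zero ha0)
  have h2 := (eval₂_reverse_eq_zero_iff (algebraMap F K) a⁻¹ c).1
  apply h2
  rw [invOf_eq_inv, inv_inv]
  exact h1

theorem exists_gp {F : Type*} [Field F] [Finite F] {p : ℕ} [Fact p.Prime] [CharP F p] {e d : ℕ} (hd : 3 ≤ d)
    (he : 1 ≤ e) (h : 2 * e * (Nat.card F ^ (d / 2) + 1) < (Nat.card F ^ d - 1) / (Nat.card F - 1)) :
    ∃ f : F[X], GP p e d f := by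
  classical
  have : NeZero d := ⟨by omega⟩
  have _ : Fintype F := Fintype.ofFinite F
  -- the field
  obtain ⟨K, _, _, _, _, hK, hcK⟩ : ∃ (K : Type) (_ : Field K) (_ : Algebra F K) (_ : FiniteDimensional F K)
      (_ : Finite K), Module.finrank F K = d ∧ Nat.card K = Nat.card F ^ d :=
    ⟨FiniteField.Extension F p d, inferInstance, inferInstance, inferInstance, inferInstance,
      FiniteField.finrank_extension F p d, FiniteField.natCard_extension F p d⟩
  have _ : Fintype K := Fintype.ofFinite K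
  set q := Nat.card F with hq
  have hq1 : 1 < q := Finite.one_lt_card
  set n := (q ^ d - 1) / (q - 1) with hn
  have hdvd : q - 1 ∣ q ^ d - 1 := by simpa using Nat.sub_dvd_pow_sub_pow q 1 d
  have hn' : n * (q - 1) = q ^ d - 1 := Nat.div_mul_cancel hdvd
  obtain ⟨u, hu⟩ := IsCyclic.exists_generator (α := Kˣ)
  have hord : orderOf u = q ^ d - 1 := by
    rw [orderOf_eq_card_of_forall_mem_zpowers hu, Nat.card_units, hcK]
  obtain ⟨z0, hz0⟩ : ∃ z0 : Kˣ, z0 = u ^ (q - 1) := ⟨_, rfl⟩
  obtain ⟨z, hz⟩ : ∃ z : Kˣ, z = z0 ^ (2 * e) := ⟨_, rfl⟩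
  have key : ∀ t : ℕ, z ^ t = 1 → n ∣ 2 * e * t := by
    intro t ht
    have h1 : u ^ ((q - 1) * (2 * e) * t) = 1 := by
      rw [pow_mul, pow_mul, ← hz0, ← hz]; exact ht
    have h2 := orderOf_dvd_of_pow_eq_one h1
    rw [hord, ← hn', mul_comm n, mul_assoc] at h2
    exact Nat.dvd_of_mul_dvd_mul_left (by omega) h2
  have hle : ∀ j, j ≤ d / 2 → q ^ j ≤ q ^ (d / 2) := fun j hj => Nat.pow_le_pow_right (by omega) hj
  have kp : ∀ j, j ≤ d / 2 → z ^ (q ^ j + 1) ≠ 1 := fun j hj h0 => by
    have h1 := Nat.le_of_dvd (Nat.mul_pos (by omega) (by omega)) (key _ h0)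
    have h2 : 2 * e * (q ^ j + 1) ≤ 2 * e * (q ^ (d / 2) + 1) :=
      Nat.mul_le_mul_left _ (Nat.add_le_add_right (hle j hj) 1)
    omega
  have km : ∀ j, 0 < j → j ≤ d / 2 → z ^ (q ^ j - 1) ≠ 1 := fun j hj0 hj h0 => by
    have h3 : 1 < q ^ j := Nat.one_lt_pow hj0.ne' hq1
    have h1 := Nat.le_of_dvd (Nat.mul_pos (by omega) (by omega)) (key _ h0)
    have h2 : 2 * e * (q ^ j - 1) ≤ 2 * e * (q ^ (d / 2) + 1) :=
      Nat.mul_le_mul_left _ (by have := hle j hj; omega)
    omega
  have hint : IsIntegral F (z : K) := Algebra.IsIntegral.isIntegral _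
  -- `z` generates `K`
  have hadj : IntermediateField.adjoin F {(z : K)} = ⊤ := by
    by_contra hne
    have hmul : Module.finrank F (IntermediateField.adjoin F {(z : K)}) *
        Module.finrank (IntermediateField.adjoin F {(z : K)}) K = d := by rw [Module.finrank_mul_finrank, hK]
    have h1 : Module.finrank (IntermediateField.adjoin F {(z : K)}) K ≠ 1 := fun h1 =>
      hne (IntermediateField.finrank_eq_one_iff_eq_top.1 h1)
    have h0 : 0 < Module.finrank (IntermediateField.adjoin F {(z : K)}) K := Module.finrank_pos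
    have h0' : 0 < Module.finrank F (IntermediateField.adjoin F {(z : K)}) := Module.finrank_pos
    have hj : Module.finrank F (IntermediateField.adjoin F {(z : K)}) ≤ d / 2 := by
      rw [Nat.le_div_iff_mul_le (by norm_num)]
      calc _ ≤ Module.finrank F (IntermediateField.adjoin F {(z : K)}) *
          Module.finrank (IntermediateField.adjoin F {(z : K)}) K := Nat.mul_le_mul_left _ (by omega)
        _ = d := hmul
    have hcL : Nat.card (IntermediateField.adjoin F {(z : K)}) =
        q ^ Module.finrank F (IntermediateField.adjoin F {(z : K)}) := Module.natCard_eq_pow_finrank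
    have _ : Fintype (IntermediateField.adjoin F {(z : K)}) := Fintype.ofFinite _
    have hzz : (z : K) ^ (q ^ Module.finrank F (IntermediateField.adjoin F {(z : K)})) = z := by
      have h2 := FiniteField.pow_card (⟨z, IntermediateField.mem_adjoin_simple_self F (z : K)⟩ :
        IntermediateField.adjoin F {(z : K)})
      rw [← Nat.card_eq_fintype_card, hcL] at h2
      exact congrArg Subtype.val h2
    apply km _ h0' hj
    have h3 : 0 < q ^ Module.finrank F (IntermediateField.adjoin F {(z : K)}) := pow_pos (by omega) _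
    have h4 : z ^ (q ^ Module.finrank F (IntermediateField.adjoin F {(z : K)}) - 1) * z = 1 * z := by
      rw [← pow_succ, Nat.sub_add_cancel h3, one_mul]
      apply Units.ext
      rw [Units.val_pow_eq_pow_val, hzz]
    exact mul_right_cancel h4
  have hadj' : Algebra.adjoin F {(z : K)} = ⊤ := by
    rw [← IntermediateField.adjoin_simple_toSubalgebra_of_isAlgebraic hint.isAlgebraic, hadj]
    rfl
  have hdeg : (minpoly F (z : K)).natDegree = d := by
    rw [← IntermediateField.adjoin.finrank hint, hadj, IntermediateField.finrank_top', hK]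
  have hroot : aeval (z : K) (minpoly F (z : K)) = 0 := minpoly.aeval _ _
  -- norm one
  have hnorm : Algebra.norm F (z : K) = 1 := by
    apply (algebraMap F K).injective
    rw [FiniteField.algebraMap_norm_eq_pow, map_one, hcK, ← Units.val_pow_eq_pow_val]
    have h1 : z ^ n = 1 := by
      rw [hz, hz0, ← pow_mul, ← pow_mul, show (q - 1) * (2 * e * n) = (n * (q - 1)) * (2 * e) by ring, hn', ← hord,
        pow_mul, pow_orderOf_eq_one, one_pow]
    rw [← hq, ← hn, h1, Units.val_one]
  have hc0 : (minpoly F (z : K)).coeff 0 = (-1) ^ d := by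
    have h1 := Algebra.PowerBasis.norm_gen_eq_coeff_zero_minpoly (PowerBasis.ofAdjoinEqTop hint hadj')
    rw [PowerBasis.ofAdjoinEqTop_gen, PowerBasis.ofAdjoinEqTop_dim, hnorm, hdeg] at h1
    have h2 : ((-1 : F) ^ d) * (-1) ^ d = 1 := by rw [← mul_pow, neg_mul_neg, one_mul, one_pow]
    calc (minpoly F (z : K)).coeff 0 = ((-1 : F) ^ d * (-1) ^ d) * (minpoly F (z : K)).coeff 0 := by rw [h2, one_mul]
      _ = (-1) ^ d * ((-1) ^ d * (minpoly F (z : K)).coeff 0) := by rw [mul_assoc]
      _ = (-1) ^ d := by rw [← h1, mul_one]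
  refine ⟨minpoly F (z : K), minpoly.monic hint, minpoly.irreducible hint, hdeg, hc0, ?_, ?_⟩
  · refine isCoprime_of_root (minpoly.irreducible hint) hroot (aeval_reverse_ne z.ne_zero ?_)
    intro h0
    have hconj : IsConjRoot F (z : K) ((z : K)⁻¹) :=
      minpoly.eq_of_irreducible_of_monic (minpoly.irreducible hint) h0 (minpoly.monic hint)
    rw [isConjRoot_iff_exists_algEquiv] at hconj
    obtain ⟨σ, hσ⟩ := hconj
    obtain ⟨⟨j, hj⟩, hσj⟩ := (FiniteField.bijective_frobeniusAlgEquivOfAlgebraic_pow F K).2 σ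
    rw [hK] at hj
    have h9 : σ ((z : K)⁻¹) = ((z : K)⁻¹) ^ (q ^ j) := by
      rw [← hσj]
      show (FiniteField.frobeniusAlgEquivOfAlgebraic F K ^ j) ((z : K)⁻¹) = _
      rw [AlgEquiv.coe_pow, FiniteField.coe_frobeniusAlgEquivOfAlgebraic_iterate, ← Nat.card_eq_fintype_card]
    have h1 : z⁻¹ ^ (q ^ j) = z := by
      apply Units.ext
      rw [Units.val_pow_eq_pow_val, Units.val_inv_eq_inv_val, ← h9, hσ]
    have h2 : z ^ (q ^ j + 1) = 1 := by
      rw [inv_pow] at h1
      rw [pow_succ]
      nth_rewrite 2 [← h1]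
      rw [mul_inv_cancel]
    by_cases hj2 : j ≤ d / 2
    · exact kp j hj2 h2
    · -- raise to the power `q ^ (d - j)`
      apply kp (d - j) (by omega)
      have h3 : z ^ (q ^ d) = z := by
        have h4 : 1 < q ^ d := Nat.one_lt_pow (by omega) hq1
        have h5 : z ^ (q ^ d - 1) = 1 := by
          have := pow_card_eq_one' (x := z)
          rwa [Nat.card_units, hcK] at this
        rw [show q ^ d = q ^ d - 1 + 1 by omega, pow_succ, h5, one_mul]
      have h4 : (z ^ (q ^ j + 1)) ^ (q ^ (d - j)) = z ^ (q ^ d) * z ^ (q ^ (d - j)) := by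
        rw [← pow_mul, add_mul, one_mul, ← pow_add q, show j + (d - j) = d by omega, pow_add]
      rw [h2, one_pow, h3] at h4
      rw [pow_succ, mul_comm, ← h4]
  · -- the root
    have h1 : (z0 : K) ∈ Algebra.adjoin F {(z : K)} := by rw [hadj']; trivial
    rw [Algebra.adjoin_singleton_eq_range_aeval] at h1
    obtain ⟨r, hr⟩ := h1
    have hr' : aeval (z : K) r = z0 := hr
    refine ⟨r, q ^ d - 1, ?_, minpoly.dvd F _ ?_, minpoly.dvd F _ ?_⟩
    · have hpp : p.Prime := Fact.out
      rw [Nat.coprime_comm, hpp.coprime_iff_not_dvd]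
      intro h2
      have h3 : p ∣ q := by
        rw [hq, Nat.card_eq_fintype_card]
        have := FiniteField.cast_card_eq_zero F
        exact (CharP.cast_eq_zero_iff F p _).1 this
      have h4 : p ∣ q ^ d := h3.trans (dvd_pow_self q (by omega))
      have h5 : 1 < q ^ d := Nat.one_lt_pow (by omega) hq1
      have h6 : p ∣ 1 := by
        have := Nat.dvd_sub h4 h2
        rwa [show q ^ d - (q ^ d - 1) = 1 by omega] at this
      exact hpp.one_lt.ne' (Nat.dvd_one.1 h6)
    · rw [map_sub, map_pow, aeval_X, hr', hz, Units.val_pow_eq_pow_val, sub_self]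
    · rw [map_sub, map_pow, map_one, hr', ← Units.val_pow_eq_pow_val]
      have := pow_card_eq_one' (x := z0)
      rw [Nat.card_units, hcK] at this
      rw [this, Units.val_one, sub_self]

end Cfsg.Agent.H544.War
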